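import Cfsg.Agent.O8Mult.Weyl
import Cfsg.Agent.L34Mult.Commutator
import Mathlib.GroupTheory.Sylow

/-!
A stem extension of a group of order `174182400` satisfying the relations of the even subgroup of
`W(E₈)` has kernel of order at most four.
-/

set_option autoImplicit false

open scoped commutatorElement
open CfsgLib.L34Mult

namespace CfsgLib.O8Mult

universe u v

/-- The quotient of a stem extension by a part of its kernel. -/
theorem isStem_quotient {Γ : Type u} {G : Type v} [Group Γ] [Group G] {σ : Γ →* G}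
    (hσ : Cfsg.IsStemExtension σ) (D : Subgroup Γ) [D.Normal] (hD : D ≤ σ.ker) :
    Cfsg.IsStemExtension (QuotientGroup.lift D σ hD) := by
  refine ⟨fun g => ?_, fun q hq => ?_, fun q hq => ?_⟩
  · obtain ⟨a, ha⟩ := hσ.1 g
    exact ⟨(a : Γ ⧸ D), ha⟩
  · obtain ⟨a, rfl⟩ := QuotientGroup.mk_surjective q
    refine Subgroup.mem_center_iff.2 fun r => ?_
    obtain ⟨b, rfl⟩ := QuotientGroup.mk_surjective r
    rw [← QuotientGroup.mk_mul, ← QuotientGroup.mk_mul, Subgroup.mem_center_iff.1 (hσ.2.1 (hq : σ a = 1)) b]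
  · obtain ⟨a, rfl⟩ := QuotientGroup.mk_surjective q
    have h : commutator Γ ≤ (commutator (Γ ⧸ D)).comap (QuotientGroup.mk' D) := by
      rw [← Subgroup.map_le_iff_le_comap, map_commutator_eq]
      exact Subgroup.commutator_mono le_top le_top
    exact h (hσ.2.2 (hq : σ a = 1))

section Roots

variable {Γ : Type u} [Group Γ] [Finite Γ] (K : Subgroup Γ)

theorem exists_root {n : ℕ} (hn : (Nat.card K).Coprime n) {k : Γ} (hk : k ∈ K) :
    ∃ r ∈ K, r ^ n = k := by
  obtain ⟨r, hr⟩ := (powCoprime hn).surjective ⟨k, hk⟩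
  exact ⟨r, r.2, congrArg Subtype.val hr⟩

theorem eq_one_of_pow {n : ℕ} (hn : (Nat.card K).Coprime n) {k : Γ} (hk : k ∈ K) (h : k ^ n = 1) :
    k = 1 := by
  have : (powCoprime hn) ⟨k, hk⟩ = (powCoprime hn) 1 := Subtype.ext (by simp [powCoprime, h])
  exact congrArg Subtype.val ((powCoprime hn).injective this)

end Roots

variable {Γ : Type u} {G : Type v} [Group Γ] [Group G] [Finite Γ] {σ : Γ →* G}

theorem central (hσ : Cfsg.IsStemExtension σ) {k : Γ} (hk : k ∈ σ.ker) (g : Γ) : g * k = k * g :=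
  Subgroup.mem_center_iff.1 (hσ.2.1 hk) g

theorem ker_mem {a b : Γ} (h : σ a = σ b) : a * b⁻¹ ∈ σ.ker := by
  rw [MonoidHom.mem_ker, map_mul, map_inv, h, mul_inv_cancel]

theorem closure_lifts (hσ : Cfsg.IsStemExtension σ) (hG : commutator G = ⊤) {x : Fin 7 → G}
    (hx : Subgroup.closure (Set.range x) = ⊤) {y : Fin 7 → Γ} (hy : ∀ i, σ (y i) = x i) :
    Subgroup.closure (Set.range y) = ⊤ := by
  set H := Subgroup.closure (Set.range y)
  have hmap : H.map σ = ⊤ := by
    rw [MonoidHom.map_closure, ← Set.range_comp, show σ ∘ y = x from funext hy, hx]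
  have hsplit : ∀ a : Γ, ∃ h ∈ H, a * h⁻¹ ∈ σ.ker := fun a => by
    obtain ⟨h, hh, e⟩ : σ a ∈ H.map σ := hmap ▸ Subgroup.mem_top _
    exact ⟨h, hh, ker_mem e.symm⟩
  have hcomm : commutator Γ ≤ H := by
    rw [commutator_def, Subgroup.commutator_le]
    intro a _ b _
    obtain ⟨h, hh, ka⟩ := hsplit a
    obtain ⟨h', hh', kb⟩ := hsplit b
    have := CfsgLib.SchurMult.commutatorElement_mul_central (a := h) (b := h') (hσ.2.1 ka) (hσ.2.1 kb)
    rw [inv_mul_cancel_right, inv_mul_cancel_right] at this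
    rw [this]
    exact H.commutator_le_self (Subgroup.commutator_mem_commutator hh hh')
  refine eq_top_iff.2 fun a _ => ?_
  obtain ⟨h, hh, ka⟩ := hsplit a
  simpa using mul_mem (hcomm (hσ.2.2 ka)) hh

theorem card_ker_le_two (hσ : Cfsg.IsStemExtension σ) (hG : commutator G = ⊤)
    (hcard : Nat.card G = 174182400) {x : Fin 7 → G}
    (hx : Subgroup.closure (Set.range x) = ⊤) {y : Fin 7 → Γ} (hy : ∀ i, σ (y i) = x i)
    (hrel : EvenRels y) : Nat.card σ.ker ≤ 2 := by
  have h := (hrel.card_le (closure_lifts hσ hG hx hy)).2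
  rw [← Subgroup.card_mul_index σ.ker, Subgroup.index_ker,
    MonoidHom.range_eq_top.2 hσ.1, Subgroup.card_top, hcard] at h
  omega

section Facts

variable {x : Fin 7 → G}

theorem EvenRels.sq (hx : EvenRels x) {i : Fin 7} (hi : i ≠ 6) : x i * x i = 1 := by
  have e : mlast i = 2 := by revert i; decide
  rw [← pow_two, ← e, hx.pow]

theorem EvenRels.invert_six (hx : EvenRels x) {j : Fin 7} (h6 : j ≠ 6) (hj : j ≠ 5) :
    x j * x 6 * x j * x 6 = 1 := by
  have e : mexp 6 j = 2 := by revert j; decide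
  have h := hx.pair 6 j
  rw [e, pow_two] at h
  have hs : (x j)⁻¹ = x j := inv_eq_of_mul_eq_one_right (hx.sq h6)
  calc x j * x 6 * x j * x 6 = ((x 6)⁻¹ * (x j)⁻¹ * (x 6)⁻¹ * (x j)⁻¹)⁻¹ := by group
    _ = ((x 6)⁻¹ * x j * ((x 6)⁻¹ * x j))⁻¹ := by rw [hs]; group
    _ = 1 := by rw [h, inv_one]

theorem EvenRels.comm (hx : EvenRels x) {i j : Fin 7} (hi : i ≠ 6) (hj : j ≠ 6) (e : mexp i j = 2) :
    x i * x j = x j * x i := by
  have h := hx.pair i j
  rw [e, pow_two, inv_eq_of_mul_eq_one_right (hx.sq hi)] at h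
  have : (x i * x j)⁻¹ = x i * x j := inv_eq_of_mul_eq_one_right h
  rw [← this, mul_inv_rev, inv_eq_of_mul_eq_one_right (hx.sq hi), inv_eq_of_mul_eq_one_right (hx.sq hj)]

end Facts

/-- The square of the order `3` rotation built from two involutions. -/
theorem dihedral_sq {a b : Γ} (ha : a * a = 1) (hb : b * b = 1) (n : ℕ)
    (hc : (a * b) ^ n ∈ Subgroup.center Γ) : ((a * b) ^ n) ^ 2 = 1 := by
  have h1 : a * (a * b) ^ n * a⁻¹ = ((a * b) ^ n)⁻¹ := by
    rw [← conj_pow, ← inv_pow]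
    congr 1
    rw [mul_inv_rev, inv_eq_of_mul_eq_one_right ha, inv_eq_of_mul_eq_one_right hb, ← mul_assoc, ha, one_mul]
  rw [CExt.conj_center hc] at h1
  rw [pow_two]
  nth_rw 1 [h1]
  exact inv_mul_cancel _

/-- Odd kernels are trivial. -/
theorem card_ker_odd (hσ : Cfsg.IsStemExtension σ) (hG : commutator G = ⊤)
    (hcard : Nat.card G = 174182400) {x : Fin 7 → G} (hx : EvenRels x)
    (hgen : Subgroup.closure (Set.range x) = ⊤) (hodd : Odd (Nat.card σ.ker)) :
    Nat.card σ.ker = 1 := by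
  have h2 : (Nat.card σ.ker).Coprime 2 := Nat.coprime_two_right.2 hodd
  have one_of_sq : ∀ {k : Γ}, k ∈ σ.ker → k ^ 2 = 1 → k = 1 := fun hk h => eq_one_of_pow _ h2 hk h
  choose l hl using fun i => hσ.1 (x i)
  -- lifts of involutions
  have hinv : ∀ i : Fin 7, ∃ y : Γ, σ y = x i ∧ (i ≠ 6 → y * y = 1) := fun i => by
    by_cases hi : i = 6
    · exact ⟨l i, hl i, fun h => absurd hi h⟩
    have hk : l i * l i ∈ σ.ker := by rw [MonoidHom.mem_ker, map_mul, hl, hx.sq hi]
    obtain ⟨r, hr, hrr⟩ := exists_root σ.ker h2 (inv_mem hk)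
    refine ⟨r * l i, by rw [map_mul, MonoidHom.mem_ker.1 hr, one_mul, hl], fun _ => ?_⟩
    rw [mul_assoc, ← mul_assoc (l i) r, central hσ hr (l i), ← mul_assoc, ← mul_assoc, ← pow_two, hrr,
      mul_assoc, inv_mul_cancel]
  choose y0 hy0 hy0sq using hinv
  -- the lift of the element of order three
  have h0 : y0 0 * y0 6 * y0 0 * y0 6 ∈ σ.ker := by
    rw [MonoidHom.mem_ker]; simp only [map_mul, hy0]; exact hx.invert_six (by decide) (by decide)
  obtain ⟨r, hr, hrr⟩ := exists_root σ.ker h2 (inv_mem h0)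
  set y : Fin 7 → Γ := fun i => if i = 6 then r * y0 6 else y0 i with hydef
  have hy : ∀ i, σ (y i) = x i := fun i => by
    by_cases hi : i = 6
    · simp only [hydef, hi, if_pos, map_mul, MonoidHom.mem_ker.1 hr, hy0, one_mul]
    · simp only [hydef, hi, if_false, hy0]
  have ysq : ∀ i : Fin 7, i ≠ 6 → y i * y i = 1 := fun i hi => by
    simp only [hydef, hi, if_false]; exact hy0sq i hi
  have yinv : ∀ i : Fin 7, i ≠ 6 → (y i)⁻¹ = y i := fun i hi => inv_eq_of_mul_eq_one_right (ysq i hi)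
  have inv0 : y 0 * y 6 * y 0 * y 6 = 1 := by
    simp only [hydef, show (0 : Fin 7) ≠ 6 by decide, if_false, if_true]
    calc y0 0 * (r * y0 6) * y0 0 * (r * y0 6) = r * r * (y0 0 * y0 6 * y0 0 * y0 6) := by
          simp only [mul_assoc]
          rw [← mul_assoc (y0 0) r, central hσ hr (y0 0), mul_assoc]
          congr 1
          rw [← mul_assoc (y0 0) r, central hσ hr (y0 0), mul_assoc, ← mul_assoc (y0 6) r,
            central hσ hr (y0 6), mul_assoc, ← mul_assoc (y0 0) r, central hσ hr (y0 0), mul_assoc]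
      _ = 1 := by rw [← pow_two, hrr, inv_mul_cancel]
  have y6cube : y 6 ^ 3 = 1 := by
    have hk : y 6 ^ 3 ∈ σ.ker := by rw [MonoidHom.mem_ker, map_pow, hy]; exact hx.pow 6
    refine one_of_sq hk ?_
    have e : y 0 * y 6 * (y 0)⁻¹ = (y 6)⁻¹ := by
      rw [yinv 0 (by decide)]; exact eq_inv_of_mul_eq_one_left inv0
    have := congrArg (· ^ 3) e
    simp only [conj_pow, inv_pow] at this
    rw [CExt.conj_center (hσ.2.1 hk)] at this
    rw [pow_two]; nth_rw 1 [this]; exact inv_mul_cancel _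
  obtain ⟨a, adef⟩ : ∃ a : Fin 7 → Γ, ∀ j, a j = y j * y 6 * y j * y 6 := ⟨_, fun _ => rfl⟩
  have ha : ∀ j : Fin 7, j ≠ 6 → j ≠ 5 → a j ∈ σ.ker := fun j h6 h5 => by
    rw [MonoidHom.mem_ker]; simp only [adef, map_mul, hy]; exact hx.invert_six h6 h5
  have ycomm : ∀ i j : Fin 7, i ≠ 6 → j ≠ 6 → mexp i j = 2 → y i * y j = y j * y i := by
    intro i j hi hj e
    have hk : (y i * y j) ^ 2 ∈ σ.ker := by
      have := hx.pair i j
      rw [e, inv_eq_of_mul_eq_one_right (hx.sq hi)] at this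
      rw [MonoidHom.mem_ker, map_pow, map_mul, hy, hy, this]
    have h := one_of_sq hk (dihedral_sq (ysq i hi) (ysq j hj) 2 (hσ.2.1 hk))
    rw [pow_two] at h
    have := inv_eq_of_mul_eq_one_right h
    rw [mul_inv_rev, yinv i hi, yinv j hj] at this
    exact this.symm
  have eqa : ∀ i j : Fin 7, i ≠ 6 → j ≠ 6 → i ≠ 5 → j ≠ 5 → mexp i j = 2 → a i = a j := by
    intro i j hi hj hi5 hj5 e
    have conj : ∀ k : Fin 7, k ≠ 6 → y k * y 6 * y k = a k * (y 6)⁻¹ := fun k _ => by rw [adef]; group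
    have two : ∀ k m : Fin 7, k ≠ 6 → k ≠ 5 → m ≠ 6 → m ≠ 5 →
        (y k * y m) * y 6 * (y m * y k) = a m * (a k)⁻¹ * y 6 := by
      intro k m hk hk5 hm hm5
      calc (y k * y m) * y 6 * (y m * y k) = y k * (y m * y 6 * y m) * y k := by simp only [mul_assoc]
        _ = y k * (a m * (y 6)⁻¹) * y k := by rw [conj m hm]
        _ = a m * (y k * (y 6)⁻¹ * y k) := by
            rw [← mul_assoc (y k), central hσ (ha m hm hm5) (y k)]; simp only [mul_assoc]
        _ = a m * ((y k)⁻¹ * y 6 * (y k)⁻¹)⁻¹ := by rw [mul_inv_rev, mul_inv_rev, inv_inv, mul_assoc]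
        _ = a m * (a k * (y 6)⁻¹)⁻¹ := by rw [yinv k hk, conj k hk]
        _ = a m * (a k)⁻¹ * y 6 := by
            rw [mul_inv_rev, inv_inv, central hσ (inv_mem (ha k hk hk5)) (y 6), mul_assoc]
    have hc : (y i * y j) * y 6 * (y j * y i) = (y j * y i) * y 6 * (y i * y j) := by
      rw [ycomm i j hi hj e]
    rw [two i j hi hi5 hj hj5, two j i hj hj5 hi hi5] at hc
    have hc' := mul_right_cancel hc
    refine eq_of_mul_inv_eq_one (one_of_sq (mul_mem (ha i hi hi5) (inv_mem (ha j hj hj5))) ?_)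
    rw [pow_two]
    nth_rw 1 [← hc']
    group
  have a0 : a 0 = 1 := (adef 0).trans inv0
  have a1 : ∀ j : Fin 7, j ≠ 6 → j ≠ 5 → a j = 1 := by
    have e4 : a 4 = 1 := by rw [← eqa 0 4 (by decide) (by decide) (by decide) (by decide) (by decide), a0]
    have e3 : a 3 = 1 := by rw [← eqa 0 3 (by decide) (by decide) (by decide) (by decide) (by decide), a0]
    have e1 : a 1 = 1 := by rw [← eqa 0 1 (by decide) (by decide) (by decide) (by decide) (by decide), a0]
    have e2 : a 2 = 1 := by rw [← eqa 1 2 (by decide) (by decide) (by decide) (by decide) (by decide), e1]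
    intro j h6 h5
    fin_cases j <;> first | assumption | exact absurd rfl h6 | exact absurd rfl h5
  have hkp : ∀ i j, ((y i)⁻¹ * y j) ^ mexp i j ∈ σ.ker := fun i j => by
    rw [MonoidHom.mem_ker, map_pow, map_mul, map_inv, hy, hy]; exact hx.pair i j
  have h56 : ((y 6)⁻¹ * y 5) ^ 3 = 1 := by
    have hk := hkp 6 5
    rw [show mexp 6 5 = 3 by decide] at hk
    refine one_of_sq hk ?_
    set d := y 5 with hd
    obtain ⟨c1, hc1⟩ : ∃ c, c = (y 6)⁻¹ * d * y 6 := ⟨_, rfl⟩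
    obtain ⟨c2, hc2⟩ : ∃ c, c = y 6 * d * (y 6)⁻¹ := ⟨_, rfl⟩
    have dd : d * d = 1 := ysq 5 (by decide)
    have d1 : c1 * c1 = 1 := by rw [hc1]; calc _ = (y 6)⁻¹ * (d * d) * y 6 := by group
                                            _ = 1 := by rw [dd]; group
    have d2 : c2 * c2 = 1 := by rw [hc2]; calc _ = y 6 * (d * d) * (y 6)⁻¹ := by group
                                            _ = 1 := by rw [dd]; group
    have hu : ((y 6)⁻¹ * d) ^ 3 = c1 * c2 * d := by
      have e : (y 6)⁻¹ * (y 6)⁻¹ = y 6 := by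
        rw [← mul_inv_rev]; refine inv_eq_of_mul_eq_one_right ?_
        rw [mul_assoc, ← pow_two, ← pow_succ']; exact y6cube
      calc ((y 6)⁻¹ * d) ^ 3 = (y 6)⁻¹ * d * y 6 * ((y 6)⁻¹ * (y 6)⁻¹) * d * ((y 6)⁻¹ * d) := by
            rw [pow_three]; group
        _ = c1 * c2 * d := by rw [e, hc1, hc2]; group
    rw [hu] at hk ⊢
    obtain ⟨u, hudef⟩ : ∃ u, u = c1 * c2 * d := ⟨_, rfl⟩
    rw [← hudef] at hk ⊢
    -- the three involutions commute
    have hp : c1 * c2 = u * d := by rw [hudef, mul_assoc, dd, mul_one]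
    have hq : c2 * d = u * c1 := by
      calc c2 * d = c1⁻¹ * u := by rw [hudef]; group
        _ = u * c1 := by rw [central hσ hk, inv_eq_of_mul_eq_one_right d1]
    have k12 : (c1 * c2) ^ 2 ∈ σ.ker := by
      rw [hp, (show Commute u d from (central hσ hk d).symm).mul_pow, pow_two d, dd, mul_one]
      exact pow_mem hk 2
    have h12 := one_of_sq k12 (dihedral_sq d1 d2 2 (hσ.2.1 k12))
    calc u ^ 2 = u ^ 2 * d ^ 2 := by rw [pow_two d, dd, mul_one]
      _ = (u * d) ^ 2 := ((show Commute u d from (central hσ hk d).symm).mul_pow 2).symm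
      _ = 1 := by rw [← hp, h12]
  have hrel : EvenRels y := by
    refine ⟨fun i => ?_, ?_⟩
    · by_cases hi : i = 6
      · subst hi; exact y6cube
      · rw [show mlast i = 2 by revert i; decide, pow_two]; exact ysq i hi
    have symm : ∀ i j, ((y i)⁻¹ * y j) ^ mexp i j = 1 → ((y j)⁻¹ * y i) ^ mexp j i = 1 := fun i j h => by
      rw [show mexp j i = mexp i j from CoxeterMatrix.E₈.symmetric _ _, show (y j)⁻¹ * y i = ((y i)⁻¹ * y j)⁻¹ by group,
        inv_pow, h, inv_one]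
    have six : ∀ j, ((y 6)⁻¹ * y j) ^ mexp 6 j = 1 := fun j => by
      by_cases h6 : j = 6
      · subst h6; simp
      by_cases h5 : j = 5
      · subst h5; exact h56
      · rw [show mexp 6 j = 2 by revert j; decide, pow_two]
        have h := a1 j h6 h5
        rw [adef] at h
        calc (y 6)⁻¹ * y j * ((y 6)⁻¹ * y j) = ((y j)⁻¹ * y 6 * (y j)⁻¹ * y 6)⁻¹ := by group
          _ = 1 := by rw [yinv j h6, h, inv_one]
    intro i j
    by_cases hi : i = 6
    · subst hi; exact six j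
    by_cases hj : j = 6
    · subst hj; exact symm _ _ (six i)
    refine one_of_sq (hkp i j) ?_
    rw [yinv i hi]
    refine dihedral_sq (ysq i hi) (ysq j hj) _ (hσ.2.1 ?_)
    have := hkp i j
    rwa [yinv i hi] at this
  have hle := card_ker_le_two hσ hG hcard hgen hy hrel
  have hp : 0 < Nat.card σ.ker := Nat.card_pos
  obtain ⟨m, hm⟩ := hodd
  omega

/-- Kernels of two-power order have at most four elements. -/
theorem card_ker_two (hσ : Cfsg.IsStemExtension σ) (hG : commutator G = ⊤)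
    (hcard : Nat.card G = 174182400) {x : Fin 7 → G} (hx : EvenRels x)
    (hgen : Subgroup.closure (Set.range x) = ⊤) {k : ℕ} (hk : Nat.card σ.ker = 2 ^ k) :
    Nat.card σ.ker ≤ 4 := by
  have h3 : (Nat.card σ.ker).Coprime 3 := by rw [hk]; exact Nat.Coprime.pow_left k (by norm_num)
  have one_of_cube : ∀ {k : Γ}, k ∈ σ.ker → k ^ 3 = 1 → k = 1 := fun hk h => eq_one_of_pow _ h3 hk h
  -- lifts with exact relations of order three
  have adjust : ∀ (a : Γ) (g : G), ((σ a)⁻¹ * g) ^ 3 = 1 → ∃ b, σ b = g ∧ (a⁻¹ * b) ^ 3 = 1 := by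
    intro a g hag
    obtain ⟨l, hl⟩ := hσ.1 g
    have hk : (a⁻¹ * l) ^ 3 ∈ σ.ker := by rw [MonoidHom.mem_ker, map_pow, map_mul, map_inv, hl, hag]
    obtain ⟨r, hr, hrr⟩ := exists_root σ.ker h3 (inv_mem hk)
    refine ⟨r * l, by rw [map_mul, MonoidHom.mem_ker.1 hr, one_mul, hl], ?_⟩
    rw [show a⁻¹ * (r * l) = r * (a⁻¹ * l) by rw [← mul_assoc, central hσ hr a⁻¹, mul_assoc],
      (show Commute r (a⁻¹ * l) from (central hσ hr _).symm).mul_pow, hrr, inv_mul_cancel]
  have edge : ∀ i j, mexp i j = 3 → ((x i)⁻¹ * x j) ^ 3 = 1 := fun i j e => e ▸ hx.pair i j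
  obtain ⟨y6, s6, c6⟩ := adjust 1 (x 6) (by rw [map_one, inv_one, one_mul]; exact hx.pow 6)
  obtain ⟨y5, s5, c5⟩ := adjust y6 (x 5) (by rw [s6]; exact edge 6 5 (by decide))
  obtain ⟨y4, s4, c4⟩ := adjust y5 (x 4) (by rw [s5]; exact edge 5 4 (by decide))
  obtain ⟨y3, s3, c3⟩ := adjust y4 (x 3) (by rw [s4]; exact edge 4 3 (by decide))
  obtain ⟨y2, s2, c2⟩ := adjust y3 (x 2) (by rw [s3]; exact edge 3 2 (by decide))
  obtain ⟨y1, s1, c1⟩ := adjust y3 (x 1) (by rw [s3]; exact edge 3 1 (by decide))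
  obtain ⟨y0, s0, c0⟩ := adjust y2 (x 0) (by rw [s2]; exact edge 2 0 (by decide))
  obtain ⟨y, hydef⟩ : ∃ y : Fin 7 → Γ, y = ![y0, y1, y2, y3, y4, y5, y6] := ⟨_, rfl⟩
  have hy : ∀ i, σ (y i) = x i := by
    subst hydef; intro i; fin_cases i <;> simp only [Fin.isValue] <;> assumption
  have y6cube : y 6 ^ 3 = 1 := by
    subst hydef; show y6 ^ 3 = 1
    simpa using c6
  have hedge : ∀ i j : Fin 7, mexp i j = 3 → ((y i)⁻¹ * y j) ^ 3 = 1 := by
    have symm : ∀ i j, ((y i)⁻¹ * y j) ^ 3 = 1 → ((y j)⁻¹ * y i) ^ 3 = 1 := fun i j h => by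
      rw [show (y j)⁻¹ * y i = ((y i)⁻¹ * y j)⁻¹ by group, inv_pow, h, inv_one]
    have key : ∀ i j : Fin 7, mexp i j = 3 → (i, j) ∈ ([(6, 5), (5, 4), (4, 3), (3, 2), (3, 1), (2, 0)] : List (Fin 7 × Fin 7)) ∨
        (j, i) ∈ ([(6, 5), (5, 4), (4, 3), (3, 2), (3, 1), (2, 0)] : List (Fin 7 × Fin 7)) := by decide
    have good : ∀ p ∈ ([(6, 5), (5, 4), (4, 3), (3, 2), (3, 1), (2, 0)] : List (Fin 7 × Fin 7)),
        ((y p.1)⁻¹ * y p.2) ^ 3 = 1 := by
      subst hydef
      intro p hp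
      simp only [List.mem_cons, List.not_mem_nil, or_false] at hp
      rcases hp with rfl | rfl | rfl | rfl | rfl | rfl <;> assumption
    intro i j e
    rcases key i j e with h | h
    exacts [good _ h, symm _ _ (good _ h)]
  obtain ⟨t, tdef⟩ : ∃ t, t = y 5 * y 5 := ⟨_, rfl⟩
  have hsqk : ∀ i : Fin 7, i ≠ 6 → y i * y i ∈ σ.ker := fun i hi => by
    rw [MonoidHom.mem_ker, map_mul, hy, hx.sq hi]
  have ht : t ∈ σ.ker := tdef ▸ hsqk 5 (by decide)
  have tsq : ∀ i : Fin 7, i ≠ 6 → y i * y i = t := by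
    have link : ∀ i j : Fin 7, mexp i j = 3 → i ≠ 6 → j ≠ 6 → y i * y i = y j * y j := by
      intro i j e hi hj
      have hz := hedge i j e
      obtain ⟨ti, hti⟩ : ∃ ti, ti = y i * y i := ⟨_, rfl⟩
      obtain ⟨tj, htj⟩ : ∃ tj, tj = y j * y j := ⟨_, rfl⟩
      have ki : ti ∈ σ.ker := hti ▸ hsqk i hi
      have kj : tj ∈ σ.ker := htj ▸ hsqk j hj
      have e1 : y i * ((y i)⁻¹ * y j) * (y i)⁻¹ = tj * ti⁻¹ * ((y i)⁻¹ * y j)⁻¹ := by
        have a1 : (y i)⁻¹ = ti⁻¹ * y i := by rw [hti]; group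
        have a2 : y j = tj * (y j)⁻¹ := by rw [htj]; group
        calc y i * ((y i)⁻¹ * y j) * (y i)⁻¹ = y j * (y i)⁻¹ := by group
          _ = tj * (y j)⁻¹ * (ti⁻¹ * y i) := by rw [← a1, ← a2]
          _ = tj * ti⁻¹ * ((y j)⁻¹ * y i) := by
              rw [mul_assoc tj, ← mul_assoc ((y j)⁻¹), central hσ (inv_mem ki) (y j)⁻¹]
              simp only [mul_assoc]
          _ = _ := by rw [mul_inv_rev, inv_inv]
      have := congrArg (· ^ 3) e1
      simp only [conj_pow, hz, mul_one, mul_inv_cancel] at this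
      rw [(show Commute (tj * ti⁻¹) ((y i)⁻¹ * y j)⁻¹ from
          (central hσ (mul_mem kj (inv_mem ki)) _).symm).mul_pow, inv_pow, hz, inv_one, mul_one] at this
      have h1 := one_of_cube (mul_mem kj (inv_mem ki)) this.symm
      rw [← hti, ← htj]
      exact (eq_of_mul_inv_eq_one h1).symm
    have e4 : y 4 * y 4 = t := by rw [link 4 5 (by decide) (by decide) (by decide), tdef]
    have e3 : y 3 * y 3 = t := by rw [link 3 4 (by decide) (by decide) (by decide), e4]
    have e2 : y 2 * y 2 = t := by rw [link 2 3 (by decide) (by decide) (by decide), e3]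
    have e1 : y 1 * y 1 = t := by rw [link 1 3 (by decide) (by decide) (by decide), e3]
    have e0 : y 0 * y 0 = t := by rw [link 0 2 (by decide) (by decide) (by decide), e2]
    have e5 : y 5 * y 5 = t := tdef.symm
    intro i hi
    fin_cases i <;> first | assumption | exact absurd rfl hi
  have tcomm : ∀ g, g * t = t * g := fun g => central hσ ht g
  -- the pairs with the element of order three
  have six : ∀ j : Fin 7, j ≠ 6 → j ≠ 5 →
      ((y 6)⁻¹ * y j) ^ 2 = t ∧ y j * (y 6)⁻¹ * (y j)⁻¹ = y 6 := by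
    intro j h6 h5
    obtain ⟨u, hu⟩ : ∃ u, u = ((y 6)⁻¹ * y j) ^ 2 := ⟨_, rfl⟩
    have ku : u ∈ σ.ker := by
      have := hx.pair 6 j
      rw [(show ∀ j : Fin 7, j ≠ 6 → j ≠ 5 → mexp 6 j = 2 by decide) j h6 h5] at this
      rw [hu, MonoidHom.mem_ker, map_pow, map_mul, map_inv, hy, hy, this]
    have e : y j * (y 6)⁻¹ * (y j)⁻¹ = u * t⁻¹ * y 6 := by
      calc y j * (y 6)⁻¹ * (y j)⁻¹ = y 6 * u * (y j * y j)⁻¹ := by rw [hu, pow_two]; group
        _ = u * t⁻¹ * y 6 := by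
            rw [tsq j h6, central hσ ku (y 6), mul_assoc, central hσ (inv_mem ht) (y 6), ← mul_assoc]
    have h := congrArg (· ^ 3) e
    simp only [conj_pow, inv_pow, y6cube, inv_one, mul_one, mul_inv_cancel] at h
    rw [(show Commute (u * t⁻¹) (y 6) from (central hσ (mul_mem ku (inv_mem ht)) _).symm).mul_pow,
      y6cube, mul_one] at h
    have h1 := one_of_cube (mul_mem ku (inv_mem ht)) h.symm
    rw [h1, one_mul] at e
    exact ⟨by rw [← hu]; exact eq_of_mul_inv_eq_one h1, e⟩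
  -- commutators of commuting involutions
  let E : CExt Γ G := ⟨σ, hσ.1, hσ.2.1⟩
  have hC : ∀ i j : Fin 7, i ≠ 6 → j ≠ 6 → mexp i j = 2 →
      E.C (x i) (x j) ∈ σ.ker ∧ y i * y j * (y i)⁻¹ = E.C (x i) (x j) * y j ∧
      E.C (x i) (x j) * E.C (x i) (x j) = 1 := by
    intro i j hi hj e
    have hcomm := hx.comm hi hj e
    have hk : E.C (x i) (x j) ∈ σ.ker := by
      rw [MonoidHom.mem_ker, show σ = E.σ from rfl, E.σ_C, commutatorElement_eq_one_iff_mul_comm.2 hcomm]
    have h := E.conj_eq (g := x i) (v := x j) (hy i) (hy j)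
    refine ⟨hk, h, ?_⟩
    have h2 := congrArg₂ (· * ·) h h
    rw [show y i * y j * (y i)⁻¹ * (y i * y j * (y i)⁻¹) = y i * (y j * y j) * (y i)⁻¹ by group,
      tsq j hj, tcomm, mul_inv_cancel_right, (show Commute (y j) (E.C (x i) (x j)) from central hσ hk _).mul_mul_mul_comm, tsq j hj] at h2
    calc E.C (x i) (x j) * E.C (x i) (x j) = E.C (x i) (x j) * E.C (x i) (x j) * t * t⁻¹ := by group
      _ = 1 := by rw [← h2, mul_inv_cancel]
  have base : ∀ i : Fin 7, i ≠ 6 → i ≠ 5 → mexp i 5 = 2 → E.C (x i) (x 5) = t ∧ t * t = 1 := by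
    intro i hi h5 e
    obtain ⟨hk, hconj, hcc⟩ := hC i 5 hi (by decide) e
    obtain ⟨hu, hinv⟩ := six i hi h5
    obtain ⟨c, hc⟩ : ∃ c, c = E.C (x i) (x 5) := ⟨_, rfl⟩
    rw [← hc] at hk hconj hcc ⊢
    have hz := hedge 6 5 (by decide)
    obtain ⟨a, ha⟩ : ∃ a, a = y i := ⟨_, rfl⟩
    obtain ⟨b, hb⟩ : ∃ b, b = y 5 := ⟨_, rfl⟩
    obtain ⟨w, hw⟩ : ∃ w, w = y 6 := ⟨_, rfl⟩
    have hb2 : b * b = t := by rw [hb, tdef]
    have ha2 : a * a = t := by rw [ha]; exact tsq i hi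
    rw [← ha, ← hb] at hconj
    rw [← ha, ← hw] at hu hinv
    rw [← hw, ← hb] at hz
    have cI : c⁻¹ = c := inv_eq_of_mul_eq_one_right hcc
    have braid : b * w⁻¹ * b = w * b⁻¹ * w := by
      calc b * w⁻¹ * b = w * (w⁻¹ * b) ^ 3 * b⁻¹ * w := by rw [pow_three]; group
        _ = w * b⁻¹ * w := by rw [hz, mul_one]
    have winv : w * a⁻¹ * w = a⁻¹ := by
      calc w * a⁻¹ * w = w * a⁻¹ * (a * w⁻¹ * a⁻¹) := by rw [hinv]
        _ = a⁻¹ := by group
    have hcy : ∀ g, g * c = c * g := fun g => central hσ hk g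
    have hab : a⁻¹ * b = c * (b * a⁻¹) := by
      calc a⁻¹ * b = a⁻¹ * (c * (c * b)) := by rw [← mul_assoc c, hcc, one_mul]
        _ = a⁻¹ * (c * (a * b * a⁻¹)) := by rw [hconj]
        _ = c * (b * a⁻¹) := by rw [← mul_assoc a⁻¹, hcy a⁻¹]; group
    have hba : b⁻¹ * a⁻¹ = c * (a⁻¹ * b⁻¹) := by
      calc b⁻¹ * a⁻¹ = a⁻¹ * (a * b * a⁻¹)⁻¹ := by group
        _ = a⁻¹ * (b⁻¹ * c) := by rw [hconj, mul_inv_rev, cI]
        _ = c * (a⁻¹ * b⁻¹) := by rw [← mul_assoc, hcy (a⁻¹ * b⁻¹)]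
    have hbb : b⁻¹ * b⁻¹ = t⁻¹ := by rw [← mul_inv_rev, hb2]
    -- the square of a product of two commuting lifts
    have hsq : (a⁻¹ * b) * (a⁻¹ * b) = c := by
      calc (a⁻¹ * b) * (a⁻¹ * b) = c * (b * a⁻¹) * (a⁻¹ * b) := by nth_rw 1 [hab]
        _ = c * (b * (a * a)⁻¹ * b) := by group
        _ = c := by rw [ha2, central hσ (inv_mem ht) b, mul_assoc t⁻¹, hb2, inv_mul_cancel, mul_one]
    have key : b⁻¹ * w * (a⁻¹ * b) * (b⁻¹ * w)⁻¹ = c * t⁻¹ * (a⁻¹ * w) := by
      calc b⁻¹ * w * (a⁻¹ * b) * (b⁻¹ * w)⁻¹ = b⁻¹ * (w * a⁻¹) * (b * w⁻¹ * b) := by group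
        _ = b⁻¹ * (w * a⁻¹ * w) * (b⁻¹ * w) := by rw [braid]; group
        _ = b⁻¹ * a⁻¹ * b⁻¹ * w := by rw [winv, mul_assoc (b⁻¹ * a⁻¹)]
        _ = c * (a⁻¹ * (b⁻¹ * b⁻¹)) * w := by rw [hba]; group
        _ = c * t⁻¹ * (a⁻¹ * w) := by rw [hbb, central hσ (inv_mem ht) a⁻¹]; group
    have hwa : (a⁻¹ * w) * (a⁻¹ * w) = t⁻¹ := by
      rw [← hu, pow_two]; group
    have h2 := congrArg₂ (· * ·) key key
    rw [show b⁻¹ * w * (a⁻¹ * b) * (b⁻¹ * w)⁻¹ * (b⁻¹ * w * (a⁻¹ * b) * (b⁻¹ * w)⁻¹) =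
        b⁻¹ * w * ((a⁻¹ * b) * (a⁻¹ * b)) * (b⁻¹ * w)⁻¹ by group, hsq, hcy, mul_inv_cancel_right] at h2
    have hck : Commute (c * t⁻¹) (a⁻¹ * w) := (central hσ (mul_mem hk (inv_mem ht)) _).symm
    rw [hck.symm.mul_mul_mul_comm, hwa] at h2
    have hct : Commute c t⁻¹ := (hcy t⁻¹).symm
    rw [hct.symm.mul_mul_mul_comm, hcc, one_mul] at h2
    -- `c` is the inverse cube of `t`
    have ht2 : t * t = 1 := by
      refine one_of_cube (mul_mem ht ht) ?_
      calc (t * t) ^ 3 = (t⁻¹ * t⁻¹ * t⁻¹ * (t⁻¹ * t⁻¹ * t⁻¹))⁻¹ := by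
            simp only [pow_three, mul_inv_rev, inv_inv, mul_assoc]
        _ = 1 := by rw [← h2, hcc, inv_one]
    refine ⟨?_, ht2⟩
    rw [h2, inv_eq_of_mul_eq_one_right ht2, ht2, one_mul]
  have t2 : t * t = 1 := (base 0 (by decide) (by decide) (by decide)).2
  have move : ∀ i j k : Fin 7, i ≠ 6 → j ≠ 6 → k ≠ 6 → mexp i j = 2 → mexp i k = 2 → mexp j k = 3 →
      E.C (x i) (x j) = E.C (x i) (x k) := by
    intro i j k hi hj hk eij eik ejk
    obtain ⟨g, hg⟩ : ∃ g, g = x j * x k := ⟨_, rfl⟩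
    have sj := hx.sq hj
    have sk := hx.sq hk
    have gi : g * x i * g⁻¹ = x i := by
      rw [mul_inv_eq_iff_eq_mul, hg, mul_assoc, ← hx.comm hi hk eik, ← mul_assoc, ← hx.comm hi hj eij, mul_assoc]
    have gj : g * x j * g⁻¹ = x k := by
      have h := edge j k ejk
      rw [inv_eq_of_mul_eq_one_right sj, pow_three] at h
      rw [mul_inv_eq_iff_eq_mul, hg]
      calc x j * x k * x j = (x j * x k * (x j * x k * (x j * x k))) * (x k)⁻¹ * (x j)⁻¹ * (x k)⁻¹ := by group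
        _ = x k * (x j * x k) := by
            rw [h, one_mul, inv_eq_of_mul_eq_one_right sj, inv_eq_of_mul_eq_one_right sk, mul_assoc]
    have hkC := (hC i j hi hj eij).1
    have e := E.C_eq (x := E.lift g * y i * (E.lift g)⁻¹) (y := E.lift g * y j * (E.lift g)⁻¹) (g := x i) (h := x k)
      (by rw [map_mul, map_mul, map_inv, E.σ_lift, show E.σ (y i) = x i from hy i, gi])
      (by rw [map_mul, map_mul, map_inv, E.σ_lift, show E.σ (y j) = x j from hy j, gj])
    rw [← e, show ⁅E.lift g * y i * (E.lift g)⁻¹, E.lift g * y j * (E.lift g)⁻¹⁆ =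
        E.lift g * ⁅y i, y j⁆ * (E.lift g)⁻¹ by simp only [commutatorElement_def]; group,
      E.C_eq (g := x i) (h := x j) (hy i) (hy j), central hσ hkC, mul_inv_cancel_right]
  have hCt : ∀ i j : Fin 7, i ≠ 6 → j ≠ 6 → mexp i j = 2 → E.C (x i) (x j) = t := by
    have b0 := (base 0 (by decide) (by decide) (by decide)).1
    have b1 := (base 1 (by decide) (by decide) (by decide)).1
    have b2 := (base 2 (by decide) (by decide) (by decide)).1
    have b3 := (base 3 (by decide) (by decide) (by decide)).1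
    have q04 : E.C (x 0) (x 4) = t := by
      rw [move 0 4 5 (by decide) (by decide) (by decide) (by decide) (by decide) (by decide), b0]
    have q14 : E.C (x 1) (x 4) = t := by
      rw [move 1 4 5 (by decide) (by decide) (by decide) (by decide) (by decide) (by decide), b1]
    have q24 : E.C (x 2) (x 4) = t := by
      rw [move 2 4 5 (by decide) (by decide) (by decide) (by decide) (by decide) (by decide), b2]
    have q03 : E.C (x 0) (x 3) = t := by
      rw [move 0 3 4 (by decide) (by decide) (by decide) (by decide) (by decide) (by decide), q04]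
    have q01 : E.C (x 0) (x 1) = t := by
      rw [move 0 1 3 (by decide) (by decide) (by decide) (by decide) (by decide) (by decide), q03]
    have tI : t⁻¹ = t := inv_eq_of_mul_eq_one_right t2
    have q12 : E.C (x 1) (x 2) = t := by
      rw [move 1 2 0 (by decide) (by decide) (by decide) (by decide) (by decide) (by decide), E.C_swap, q01, tI]
    have sw : ∀ i j, E.C (x i) (x j) = t → E.C (x j) (x i) = t := fun i j h => by rw [E.C_swap, h, tI]
    intro i j hi hj e
    have key : ∀ i j : Fin 7, i ≠ 6 → j ≠ 6 → mexp i j = 2 →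
        (i, j) ∈ ([(0, 5), (1, 5), (2, 5), (3, 5), (0, 4), (1, 4), (2, 4), (0, 3), (0, 1), (1, 2)] : List (Fin 7 × Fin 7)) ∨
        (j, i) ∈ ([(0, 5), (1, 5), (2, 5), (3, 5), (0, 4), (1, 4), (2, 4), (0, 3), (0, 1), (1, 2)] : List (Fin 7 × Fin 7)) := by decide
    have good : ∀ p ∈ ([(0, 5), (1, 5), (2, 5), (3, 5), (0, 4), (1, 4), (2, 4), (0, 3), (0, 1), (1, 2)] : List (Fin 7 × Fin 7)),
        E.C (x p.1) (x p.2) = t := by
      intro p hp
      simp only [List.mem_cons, List.not_mem_nil, or_false] at hp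
      rcases hp with rfl | rfl | rfl | rfl | rfl | rfl | rfl | rfl | rfl | rfl <;> assumption
    rcases key i j hi hj e with h | h
    exacts [good _ h, sw _ _ (good _ h)]
  -- the quotient by `t` satisfies the relations
  let T := Subgroup.zpowers t
  have hTK : T ≤ σ.ker := Subgroup.zpowers_le.2 ht
  haveI : T.Normal := ⟨fun n hn g => by rw [central hσ (hTK hn) g, mul_inv_cancel_right]; exact hn⟩
  have qt : ((t : Γ) : Γ ⧸ T) = 1 := (QuotientGroup.eq_one_iff t).2 (Subgroup.mem_zpowers t)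
  have hpairs : ∀ i j : Fin 7, i ≠ 6 → j ≠ 6 → mexp i j = 2 → ((y i)⁻¹ * y j) ^ 2 = t := by
    intro i j hi hj e
    obtain ⟨hk, hconj, hcc⟩ := hC i j hi hj e
    rw [hCt i j hi hj e] at hconj
    calc ((y i)⁻¹ * y j) ^ 2 = (y i)⁻¹ * y j * (y i)⁻¹ * y j := by rw [pow_two]; group
      _ = (y i * y i)⁻¹ * (y i * y j * (y i)⁻¹) * y j := by group
      _ = t := by rw [tsq i hi, hconj, ← mul_assoc t⁻¹, inv_mul_cancel, one_mul, tsq j hj]
  have hrel : EvenRels fun i => ((y i : Γ) : Γ ⧸ T) := by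
    refine ⟨fun i => ?_, fun i j => ?_⟩
    · show ((y i : Γ) : Γ ⧸ T) ^ mlast i = 1
      by_cases hi : i = 6
      · subst hi; rw [← QuotientGroup.mk_pow, show mlast 6 = 3 by decide, y6cube]; rfl
      · rw [← QuotientGroup.mk_pow, show mlast i = 2 by revert i; decide, pow_two, tsq i hi, qt]
    · show (((y i : Γ) : Γ ⧸ T)⁻¹ * ((y j : Γ) : Γ ⧸ T)) ^ mexp i j = 1
      rw [← QuotientGroup.mk_inv, ← QuotientGroup.mk_mul, ← QuotientGroup.mk_pow]
      have cases3 : mexp i j = 1 ∧ i = j ∨ mexp i j = 2 ∨ mexp i j = 3 := by revert i j; decide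
      rcases cases3 with ⟨e, rfl⟩ | e | e
      · rw [inv_mul_cancel, one_pow]; rfl
      · rw [e]
        by_cases hi : i = 6
        · subst hi
          have hj : j ≠ 6 ∧ j ≠ 5 := by revert j; decide
          rw [(six j hj.1 hj.2).1, qt]
        by_cases hj : j = 6
        · subst hj
          have hi' : i ≠ 5 := by revert i; decide
          rw [show ((y i)⁻¹ * y 6) ^ 2 = (((y 6)⁻¹ * y i) ^ 2)⁻¹ by rw [← inv_pow]; group,
            (six i hi hi').1, QuotientGroup.mk_inv, qt, inv_one]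
        · rw [hpairs i j hi hj e, qt]
      · rw [e, hedge i j e]; rfl
  let σ' : Γ ⧸ T →* G := QuotientGroup.lift T σ hTK
  have hσ' : Cfsg.IsStemExtension σ' := isStem_quotient hσ T hTK
  have hle := card_ker_le_two hσ' hG hcard hgen (y := fun i => ((y i : Γ) : Γ ⧸ T)) hy hrel
  have h1 := Subgroup.card_eq_card_quotient_mul_card_subgroup T
  have h2 : Nat.card T ≤ 2 := by
    rw [Nat.card_zpowers]
    exact Nat.le_of_dvd two_pos (orderOf_dvd_of_pow_eq_one (by rw [pow_two, t2]))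
  have e1 := Subgroup.card_mul_index σ.ker
  rw [Subgroup.index_ker, MonoidHom.range_eq_top.2 hσ.1, Subgroup.card_top, hcard, h1,
    ← Subgroup.card_mul_index σ'.ker, Subgroup.index_ker, MonoidHom.range_eq_top.2 hσ'.1,
    Subgroup.card_top, hcard] at e1
  have h3 : Nat.card σ'.ker * Nat.card T ≤ 2 * 2 := Nat.mul_le_mul hle h2
  nlinarith

/-- Kernels of stem extensions have at most four elements. -/
theorem card_ker_le_four (hσ : Cfsg.IsStemExtension σ) (hG : commutator G = ⊤)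
    (hcard : Nat.card G = 174182400) {x : Fin 7 → G} (hx : EvenRels x)
    (hgen : Subgroup.closure (Set.range x) = ⊤) : Nat.card σ.ker ≤ 4 := by
  haveI : Fact (Nat.Prime 2) := ⟨Nat.prime_two⟩
  obtain ⟨P⟩ : Nonempty (Sylow 2 σ.ker) := inferInstance
  let D : Subgroup Γ := (P : Subgroup σ.ker).map σ.ker.subtype
  have hD : D ≤ σ.ker := Subgroup.map_subtype_le _
  haveI : D.Normal := ⟨fun n hn g => by rw [central hσ (hD hn) g, mul_inv_cancel_right]; exact hn⟩
  let σ' : Γ ⧸ D →* G := QuotientGroup.lift D σ hD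
  have hσ' : Cfsg.IsStemExtension σ' := isStem_quotient hσ D hD
  have hP : Nat.card D = Nat.card (P : Subgroup σ.ker) :=
    Subgroup.card_map_of_injective σ.ker.subtype_injective
  have hmul : Nat.card σ.ker = Nat.card σ'.ker * Nat.card D := by
    have e1 := Subgroup.card_mul_index σ.ker
    rw [Subgroup.index_ker, MonoidHom.range_eq_top.2 hσ.1, Subgroup.card_top,
      Subgroup.card_eq_card_quotient_mul_card_subgroup D, ← Subgroup.card_mul_index σ'.ker,
      Subgroup.index_ker, MonoidHom.range_eq_top.2 hσ'.1, Subgroup.card_top] at e1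
    have hpos : 0 < Nat.card G := by omega
    refine Nat.eq_of_mul_eq_mul_right hpos ?_
    rw [e1]; ring
  have hidx : (P : Subgroup σ.ker).index = Nat.card σ'.ker := by
    have := (P : Subgroup σ.ker).card_mul_index
    rw [hmul, hP] at this
    exact Nat.eq_of_mul_eq_mul_left (Nat.card_pos) (this.trans (Nat.mul_comm _ _))
  haveI hn : (P : Subgroup σ.ker).Normal := ⟨fun n hn g => by
    rw [show g * n = n * g from Subtype.ext (central hσ n.2 g), mul_inv_cancel_right]; exact hn⟩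
  have hodd : Odd (Nat.card σ'.ker) := by
    rw [Nat.odd_iff, ← hidx]
    have := P.not_dvd_index
    omega
  obtain ⟨k, hk⟩ := IsPGroup.iff_card.1 P.isPGroup'
  have h1 := card_ker_odd hσ' hG hcard hx hgen hodd
  rw [h1, one_mul, hP, hk] at hmul
  exact card_ker_two hσ hG hcard hx hgen hmul

end CfsgLib.O8Mult
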