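import Cfsg.Agent.O8Mult.Omega
import Cfsg.Agent.O8Mult.Roots
import Cfsg.Agent.O8Mult.Bound
import Cfsg.Agent.SchurMult.Multiplier

/-!
A stem extension of `Ω⁺₈(2)` with kernel of order four: the fibre product of the two maps from the
even subgroup of the Coxeter group of type `E₈`.
-/

set_option autoImplicit false

namespace CfsgLib.O8Mult

/-- The image of a root. -/
def rootFun (i : Fin 8) (k : Fin 240) : Fin 240 :=
  ⟨((rootTab i >>> (8 * (k : ℕ))) &&& 255) % 240, Nat.mod_lt _ (by norm_num)⟩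

theorem rootFun_self : ∀ i k, rootFun i (rootFun i k) = k := by decide +kernel

/-- A simple reflection as a permutation of the roots. -/
def rootPerm (i : Fin 8) : Equiv.Perm (Fin 240) :=
  ⟨rootFun i, rootFun i, rootFun_self i, rootFun_self i⟩

theorem rootPerm_rel : ∀ i j k,
    (fun k => rootFun i (rootFun j k))^[CoxeterMatrix.E₈ i j] k = k := by decide +kernel

theorem rootPerm_liftable : CoxeterMatrix.E₈.IsLiftable rootPerm := fun i j => by
  refine Equiv.ext fun k => ?_
  rw [Equiv.Perm.coe_pow]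
  exact rootPerm_rel i j k

/-- The action on the roots. -/
noncomputable def rootRep : W →* Equiv.Perm (Fin 240) := cs.lift ⟨rootPerm, rootPerm_liftable⟩

theorem rootRep_prod (w : List (Fin 7)) (k : Fin 240) :
    rootRep (((w.map gR).prod : Wp) : W) k = w.foldr (fun i z => rootFun 7 (rootFun i.castSucc z)) k := by
  induction w with
  | nil => simp
  | cons i w ih =>
    rw [List.map_cons, List.prod_cons, Subgroup.coe_mul, map_mul, Equiv.Perm.mul_apply, ih, List.foldr_cons,
      gR_coe, map_mul, Equiv.Perm.mul_apply, rootRep, cs.lift_apply_simple rootPerm_liftable,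
      cs.lift_apply_simple rootPerm_liftable]
    rfl

theorem prod_ne_one {w : List (Fin 7)} (k : Fin 240)
    (h : w.foldr (fun i z => rootFun 7 (rootFun i.castSucc z)) k ≠ k) : (w.map gR).prod ≠ 1 := fun e => by
  refine h ?_
  rw [← rootRep_prod, e]
  simp

/-- The first map. -/
noncomputable abbrev fstMap : Wp →* G8 := evenRels_R.hom

/-- The second map. -/
noncomputable abbrev sndMap : Wp →* G8 := evenRels_P.hom

theorem card_ker {f : Wp →* G8} (hf : Function.Surjective f) : Nat.card f.ker = 2 := by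
  have h := Subgroup.card_mul_index f.ker
  rw [Subgroup.index_ker, MonoidHom.range_eq_top.2 hf, Subgroup.card_top, card_G8, card_Wp] at h
  omega

theorem ker_two {f : Wp →* G8} (hf : Function.Surjective f) {a : Wp} (ha : a ∈ f.ker) :
    a * a = 1 ∧ ∀ b, b * a = a * b := by
  have h2 := card_ker hf
  obtain ⟨x, y, hne, hxy⟩ := Nat.card_eq_two_iff.1 h2
  have alt : ∀ z : f.ker, ∀ t : f.ker, z ≠ 1 → t ≠ 1 → z = t := fun z t hz ht => by
    rcases hxy.ge (Set.mem_univ z) with rfl | rfl <;> rcases hxy.ge (Set.mem_univ t) with rfl | rfl <;>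
      rcases hxy.ge (Set.mem_univ (1 : f.ker)) with h | h <;>
      first | rfl | exact absurd h.symm hz | exact absurd h.symm ht
  constructor
  · by_contra h
    have hz : (⟨a, ha⟩ : f.ker) ≠ 1 := fun e => h (by
      have e' : a = 1 := Subtype.ext_iff.1 e
      rw [e', mul_one])
    have := alt (⟨a, ha⟩ * ⟨a, ha⟩) ⟨a, ha⟩ (fun e => h (Subtype.ext_iff.1 e)) hz
    exact hz (by simpa using this)
  · intro b
    by_cases h : a = 1
    · simp [h]
    · have hn : b * a * b⁻¹ ∈ f.ker := (MonoidHom.normal_ker f).conj_mem a ha b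
      have := alt ⟨_, hn⟩ ⟨a, ha⟩ (fun e => h (by simpa using Subtype.ext_iff.1 e))
        (fun e => h (Subtype.ext_iff.1 e))
      exact mul_inv_eq_iff_eq_mul.1 (Subtype.ext_iff.1 this)

/-- The fibre product. -/
noncomputable def fib : Subgroup (Wp × Wp) :=
  MonoidHom.eqLocus (fstMap.comp (MonoidHom.fst _ _)) (sndMap.comp (MonoidHom.snd _ _))

theorem mem_fib {a : Wp × Wp} : a ∈ fib ↔ fstMap a.1 = sndMap a.2 := Iff.rfl

/-- The extension. -/
noncomputable def cover : fib →* G8 := (fstMap.comp (MonoidHom.fst _ _)).comp fib.subtype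

theorem mem_ker_cover {x : fib} :
    x ∈ cover.ker ↔ (x : Wp × Wp).1 ∈ fstMap.ker ∧ (x : Wp × Wp).2 ∈ sndMap.ker := by
  have h : fstMap (x : Wp × Wp).1 = sndMap (x : Wp × Wp).2 := x.2
  simp only [MonoidHom.mem_ker]
  exact ⟨fun e => ⟨e, h ▸ e⟩, fun e => e.1⟩

theorem hom_prod {x : Fin 7 → G8} (hx : EvenRels x) (w : List (Fin 7)) :
    hx.hom (w.map gR).prod = (w.map x).prod := by
  rw [map_list_prod, List.map_map]
  congr 1
  exact List.map_congr_left fun i _ => hx.hom_gR i

theorem fst_surjective : Function.Surjective fstMap := evenRels_R.hom_surjective closure_R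

theorem snd_surjective : Function.Surjective sndMap := evenRels_P.hom_surjective closure_P

theorem cover_surjective : Function.Surjective cover := fun g => by
  obtain ⟨a, ha⟩ := fst_surjective g
  obtain ⟨b, hb⟩ := snd_surjective g
  exact ⟨⟨(a, b), mem_fib.2 (ha.trans hb.symm)⟩, ha⟩

theorem ker_le_center : cover.ker ≤ Subgroup.center fib := fun x hx => by
  obtain ⟨h1, h2⟩ := mem_ker_cover.1 hx
  refine Subgroup.mem_center_iff.2 fun y => Subtype.ext (Prod.ext ?_ ?_)
  · exact (ker_two fst_surjective h1).2 _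
  · exact (ker_two snd_surjective h2).2 _

theorem sq_mem (x : fib) : x * x ∈ commutator fib := by
  have hmap : (commutator fib).map cover = ⊤ := by
    rw [commutator_def, Subgroup.map_commutator, ← MonoidHom.range_eq_map,
      MonoidHom.range_eq_top.2 cover_surjective, ← commutator_def, commutator_G8]
  obtain ⟨c, hc, e⟩ : cover x ∈ (commutator fib).map cover := hmap ▸ Subgroup.mem_top _
  have hk : c⁻¹ * x ∈ cover.ker := by rw [MonoidHom.mem_ker, map_mul, map_inv, e, inv_mul_cancel]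
  obtain ⟨h1, h2⟩ := mem_ker_cover.1 hk
  set k := c⁻¹ * x with hkdef
  have hk2 : k * k = 1 :=
    Subtype.ext (Prod.ext (ker_two fst_surjective h1).1 (ker_two snd_surjective h2).1)
  have hx : x = c * k := by rw [hkdef, mul_inv_cancel_left]
  have hcomm := Subgroup.mem_center_iff.1 (ker_le_center hk) c
  rw [hx, mul_assoc c k, ← mul_assoc k c, ← hcomm, mul_assoc c k k, hk2, mul_one]
  exact mul_mem hc hc

theorem gR_zero_sq : gR 0 * gR 0 = 1 := EvenRels.sq evenRels_gR (by decide)

theorem ker_le_commutator : cover.ker ≤ commutator fib := by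
  obtain ⟨u, u1, u2⟩ : ∃ u : fib, (u : Wp × Wp).1 = gR 0 ∧ (u : Wp × Wp).2 = ((wordR 0).map gR).prod :=
    ⟨⟨(gR 0, ((wordR 0).map gR).prod), mem_fib.2 (by
      rw [hom_prod evenRels_P, prod_P]; exact evenRels_R.hom_gR 0)⟩, rfl, rfl⟩
  obtain ⟨v, v1, v2⟩ : ∃ v : fib, (v : Wp × Wp).1 = ((wordP 0).map gR).prod ∧ (v : Wp × Wp).2 = gR 0 :=
    ⟨⟨(((wordP 0).map gR).prod, gR 0), mem_fib.2 (by
      rw [hom_prod evenRels_R, prod_R]; exact (evenRels_P.hom_gR 0).symm)⟩, rfl, rfl⟩
  have hu : (u * u : fib).1.2 ≠ 1 ∧ (u * u : fib).1.1 = 1 := by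
    rw [Subgroup.coe_mul, Prod.fst_mul, Prod.snd_mul, u1, u2]
    refine ⟨?_, gR_zero_sq⟩
    rw [← List.prod_append, ← List.map_append]
    exact prod_ne_one 0 (by decide +kernel)
  have hv : (v * v : fib).1.1 ≠ 1 ∧ (v * v : fib).1.2 = 1 := by
    rw [Subgroup.coe_mul, Prod.fst_mul, Prod.snd_mul, v1, v2]
    refine ⟨?_, gR_zero_sq⟩
    rw [← List.prod_append, ← List.map_append]
    exact prod_ne_one 0 (by decide +kernel)
  have kmem : ∀ y : fib, cover (y * y) = 1 → y * y ∈ cover.ker := fun y h => h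
  have cu : cover (u * u) = 1 := by
    show fstMap (u * u : fib).1.1 = 1
    rw [hu.2, map_one]
  have cv : cover (v * v) = 1 := by
    have h : fstMap (v * v : fib).1.1 = sndMap (v * v : fib).1.2 := mem_fib.1 (v * v).2
    show fstMap (v * v : fib).1.1 = 1
    rw [h, hv.2, map_one]
  obtain ⟨-, hu2⟩ := mem_ker_cover.1 (kmem u cu)
  obtain ⟨hv1, -⟩ := mem_ker_cover.1 (kmem v cv)
  have pick : ∀ {f : Wp →* G8}, Function.Surjective f → ∀ {a b : Wp}, a ∈ f.ker → b ∈ f.ker → b ≠ 1 →
      a = 1 ∨ a = b := by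
    intro f hf a b ha hb hb1
    obtain ⟨x, y, -, hxy⟩ := Nat.card_eq_two_iff.1 (card_ker hf)
    rcases hxy.ge (Set.mem_univ (⟨a, ha⟩ : f.ker)) with h | h <;>
      rcases hxy.ge (Set.mem_univ (⟨b, hb⟩ : f.ker)) with h' | h' <;>
      rcases hxy.ge (Set.mem_univ (1 : f.ker)) with h'' | h'' <;>
      first
        | exact Or.inr (Subtype.ext_iff.1 (h.trans h'.symm))
        | exact Or.inl (Subtype.ext_iff.1 (h.trans h''.symm))
        | exact absurd (Subtype.ext_iff.1 (h'.trans h''.symm)) hb1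
  intro x hx
  obtain ⟨h1, h2⟩ := mem_ker_cover.1 hx
  rcases pick fst_surjective h1 hv1 hv.1 with e1 | e1 <;>
    rcases pick snd_surjective h2 hu2 hu.1 with e2 | e2
  · rw [show x = 1 from Subtype.ext (Prod.ext e1 e2)]; exact one_mem _
  · rw [show x = u * u from Subtype.ext (Prod.ext (e1.trans hu.2.symm) e2)]; exact sq_mem u
  · rw [show x = v * v from Subtype.ext (Prod.ext e1 (e2.trans hv.2.symm))]; exact sq_mem v
  · rw [show x = v * v * (u * u) from Subtype.ext (Prod.ext
      (e1.trans ((mul_one _).symm.trans (congrArg _ hu.2.symm)))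
      (e2.trans ((one_mul _).symm.trans (congrArg (· * _) hv.2.symm))))]
    exact mul_mem (sq_mem v) (sq_mem u)

theorem isStem_cover : Cfsg.IsStemExtension cover := ⟨cover_surjective, ker_le_center, ker_le_commutator⟩

/-- The kernel of the extension. -/
noncomputable def kerEquiv : cover.ker ≃* fstMap.ker × sndMap.ker where
  toFun x := (⟨_, (mem_ker_cover.1 x.2).1⟩, ⟨_, (mem_ker_cover.1 x.2).2⟩)
  invFun y := ⟨⟨(y.1, y.2), mem_fib.2 ((y.1.2 : fstMap _ = 1).trans (y.2.2 : sndMap _ = 1).symm)⟩,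
    mem_ker_cover.2 ⟨y.1.2, y.2.2⟩⟩
  left_inv _ := rfl
  right_inv _ := rfl
  map_mul' _ _ := rfl

/-- The Schur multiplier of `Ω⁺₈(2)`. -/
theorem hasSchurMultiplier_G8 :
    Cfsg.HasSchurMultiplier G8 (Multiplicative (ZMod 2 × ZMod 2)) := by
  have hcl := closure_R
  have k2 : ∀ {f : Wp →* G8}, Function.Surjective f → Nonempty (f.ker ≃* Multiplicative (ZMod 2)) := by
    intro f hf
    have : Fact (Nat.Prime 2) := ⟨Nat.prime_two⟩
    exact ⟨mulEquivOfPrimeCardEq (card_ker hf) (by simp)⟩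
  obtain ⟨e1⟩ := k2 fst_surjective
  obtain ⟨e2⟩ := k2 snd_surjective
  refine CfsgLib.SchurMult.hasSchurMultiplier_of_stem_card_le isStem_cover ?_
    (kerEquiv.trans ((MulEquiv.prodCongr e1 e2).trans (MulEquiv.prodMultiplicative (G := ZMod 2) (H := ZMod 2)).symm))
  obtain ⟨Γ, _, _, σ, hσ, ⟨k⟩⟩ := (CfsgLib.SchurMult.hasSchurMultiplier_mult (Q := G8)).1
  rw [Nat.card_congr kerEquiv.toEquiv, Nat.card_prod, card_ker fst_surjective, card_ker snd_surjective,
    ← Nat.card_congr k.toEquiv]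
  exact card_ker_le_four hσ commutator_G8 card_G8 evenRels_R hcl

end CfsgLib.O8Mult
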